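import Mathlib
import Cfsg.Agent.Lib.OddLocal.UniqueP
import Cfsg.Agent.Lib.OddLocal.UniqueP2
import Cfsg.Agent.Lib.Coprime.Action

/-!
# Lifting abelian subgroups of `G / M`, and conjugacy of abelian subgroups of equal order
-/

set_option autoImplicit false
set_option linter.unusedSectionVars false
set_option linter.style.haveILetI false

namespace Cfsg.Agent.Lib.AbConj

universe u

open Subgroup

/-- Every `t`-subgroup, `t` dividing `#M`, is cyclic or lies in `M`. -/
def Good (G : Type u) [Group G] (M : Subgroup G) : Prop :=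
  ∀ t : ℕ, t.Prime → t ∣ Nat.card M → ∀ P : Subgroup G, IsPGroup t P → IsCyclic P ∨ P ≤ M

theorem isMulComm_of_forall {G : Type u} [Group G] {A : Subgroup G}
    (h : ∀ a ∈ A, ∀ b ∈ A, a * b = b * a) : IsMulCommutative A :=
  ⟨⟨fun x y => Subtype.ext (h x x.2 y y.2)⟩⟩

theorem forall_of_isMulComm {G : Type u} [Group G] {A : Subgroup G}
    (h : IsMulCommutative A) {a b : G} (ha : a ∈ A) (hb : b ∈ A) : a * b = b * a := by
  have := h.is_comm.comm (⟨a, ha⟩ : A) ⟨b, hb⟩
  simpa using congrArg Subtype.val this

theorem card_subgroupOf_dvd {G : Type u} [Group G] [Finite G] (M H : Subgroup G) :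
    Nat.card (M.subgroupOf H) ∣ Nat.card M := by
  have h1 : Nat.card ((M.subgroupOf H).map H.subtype) = Nat.card (M.subgroupOf H) :=
    Subgroup.card_map_of_injective H.subtype_injective
  rw [← h1]
  apply Subgroup.card_dvd_of_le
  rintro _ ⟨x, hx, rfl⟩
  exact hx

theorem Good.subgroup {G : Type u} [Group G] [Finite G] {M : Subgroup G} (h : Good G M)
    (H : Subgroup G) : Good H (M.subgroupOf H) := by
  intro t ht htM P hP
  have h1 : t ∣ Nat.card M := htM.trans (card_subgroupOf_dvd M H)
  have h2 : IsPGroup t (P.map H.subtype) := hP.map _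
  rcases h t ht h1 _ h2 with h3 | h3
  · left
    exact isCyclic_of_surjective (P.equivMapOfInjective _ H.subtype_injective).symm
      (MulEquiv.surjective _)
  · right
    intro x hx
    exact h3 ⟨x, hx, rfl⟩

/-- A subgroup with abelian quotient is normal. -/
theorem normal_of_comm_le {G : Type u} [Group G] {M N : Subgroup G} (hc : commutator G ≤ M)
    (hM : M ≤ N) : N.Normal := by
  constructor
  intro n hn g
  have h1 : g * n * g⁻¹ * n⁻¹ ∈ commutator G := by
    rw [_root_.commutator_def]
    exact Subgroup.commutator_mem_commutator (mem_top _) (mem_top _)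
  have h2 : g * n * g⁻¹ = (g * n * g⁻¹ * n⁻¹) * n := by group
  rw [h2]
  exact N.mul_mem (hM (hc h1)) hn

/-- Main lift: an abelian quotient `G / M` lifts to an abelian subgroup of `G`. -/
theorem lift_abelian : ∀ (n : ℕ) (G : Type u) [Group G] [Finite G] (M : Subgroup G) [M.Normal],
    Nat.card G = n → commutator G ≤ M → Good G M →
      ∃ A : Subgroup G, IsMulCommutative A ∧ A ⊔ M = ⊤ := by
  intro n
  induction n using Nat.strong_induction_on with
  | _ n ih =>
  intro G _ _ M _ hn hc hgood
  by_cases hex : ∃ (p : ℕ) (_ : Fact p.Prime) (T : Sylow p G), ¬ (T : Subgroup G).Normal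
  · obtain ⟨p, hp, T, hT⟩ := hex
    haveI := hp
    -- Frattini
    haveI hN : ((T : Subgroup G) ⊔ M).Normal := normal_of_comm_le hc le_sup_right
    have hF : normalizer ((T : Subgroup G) : Set G) ⊔ ((T : Subgroup G) ⊔ M) = ⊤ :=
      Sylow.normalizer_sup_eq_top' T le_sup_left
    have hF' : normalizer ((T : Subgroup G) : Set G) ⊔ M = ⊤ := by
      rw [← sup_assoc, sup_eq_left.mpr Subgroup.le_normalizer] at hF
      exact hF
    set G₁ : Subgroup G := normalizer ((T : Subgroup G) : Set G) with hG₁
    have hne : G₁ ≠ ⊤ := fun h => hT (Subgroup.normalizer_eq_top_iff.mp h)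
    have hlt : Nat.card G₁ < n := by
      rw [← hn]
      have h1 : Nat.card G₁ ∣ Nat.card G := Subgroup.card_subgroup_dvd_card G₁
      refine lt_of_le_of_ne (Nat.le_of_dvd Nat.card_pos h1) ?_
      intro h2
      exact hne (Subgroup.eq_top_of_card_eq _ h2)
    haveI hM₁ : (M.subgroupOf G₁).Normal := inferInstance
    have hc₁ : commutator G₁ ≤ M.subgroupOf G₁ := by
      rw [_root_.commutator_def, Subgroup.commutator_le]
      intro x _ y _
      rw [Subgroup.mem_subgroupOf]
      apply hc
      rw [_root_.commutator_def]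
      exact Subgroup.commutator_mem_commutator (mem_top _) (mem_top _)
    obtain ⟨A₁, hA₁, hs⟩ := ih _ hlt G₁ (M.subgroupOf G₁) rfl hc₁ (hgood.subgroup G₁)
    refine ⟨A₁.map G₁.subtype, ?_, ?_⟩
    · apply isMulComm_of_forall
      rintro _ ⟨a, ha, rfl⟩ _ ⟨b, hb, rfl⟩
      have := forall_of_isMulComm hA₁ ha hb
      simpa using congrArg Subtype.val this
    · have h1 : G₁ ≤ A₁.map G₁.subtype ⊔ M := by
        intro x hx
        have h2 : (⟨x, hx⟩ : G₁) ∈ A₁ ⊔ M.subgroupOf G₁ := by rw [hs]; exact mem_top _
        have h3 : x ∈ (A₁ ⊔ M.subgroupOf G₁).map G₁.subtype := ⟨⟨x, hx⟩, h2, rfl⟩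
        rw [Subgroup.map_sup] at h3
        have h4 : A₁.map G₁.subtype ⊔ (M.subgroupOf G₁).map G₁.subtype ≤ A₁.map G₁.subtype ⊔ M := by
          apply sup_le_sup_left
          rintro _ ⟨y, hy, rfl⟩
          exact hy
        exact h4 h3
      rw [eq_top_iff, ← hF']
      exact sup_le h1 le_sup_right
  · -- all Sylow subgroups are normal
    push Not at hex
    have hcomm_sylow : ∀ (p : ℕ) (_ : Fact p.Prime), p ∣ M.index → ∀ T : Sylow p G,
        ∀ a ∈ (T : Subgroup G), ∀ b ∈ (T : Subgroup G), a * b = b * a := by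
      intro p hp hpM T a ha b hb
      haveI := hp
      by_cases hpc : p ∣ Nat.card M
      · rcases hgood p hp.out hpc T T.isPGroup' with h1 | h1
        · exact forall_of_isMulComm (IsCyclic.isMulCommutative (α := (T : Subgroup G))) ha hb
        · exfalso
          have h2 : M.index ∣ (T : Subgroup G).index := Subgroup.index_dvd_of_le h1
          exact T.not_dvd_index (hpM.trans h2)
      · have hd : Disjoint (T : Subgroup G) M := by
          apply Subgroup.disjoint_of_coprime_natCard
          have hT := T.isPGroup'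
          obtain ⟨k, hk⟩ := hT.exists_card_eq
          rw [hk]
          exact Nat.Coprime.pow_left _ ((Nat.Prime.coprime_iff_not_dvd hp.out).mpr hpc)
        have h1 : a * b * a⁻¹ * b⁻¹ ∈ commutator G := by
          rw [_root_.commutator_def]
          exact Subgroup.commutator_mem_commutator (mem_top _) (mem_top _)
        have h2 : a * b * a⁻¹ * b⁻¹ ∈ (T : Subgroup G) :=
          (T : Subgroup G).mul_mem ((T : Subgroup G).mul_mem ((T : Subgroup G).mul_mem ha hb)
            ((T : Subgroup G).inv_mem ha)) ((T : Subgroup G).inv_mem hb)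
        have h3 : a * b * a⁻¹ * b⁻¹ ∈ (T : Subgroup G) ⊓ M := ⟨h2, hc h1⟩
        rw [hd.eq_bot, mem_bot] at h3
        exact mul_inv_eq_one.mp (by simpa [mul_assoc] using h3)
    let S : Set G := {x | ∃ p : ℕ, p.Prime ∧ p ∣ M.index ∧ ∃ k : ℕ, x ^ (p ^ k) = 1}
    have hsylow_mem : ∀ (p : ℕ) (_ : Fact p.Prime) (x : G) (k : ℕ), x ^ (p ^ k) = 1 →
        ∃ T : Sylow p G, x ∈ (T : Subgroup G) := by
      intro p hp x k hx
      haveI := hp
      have h1 : IsPGroup p (zpowers x) := by
        intro y
        obtain ⟨y, j, rfl⟩ := y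
        refine ⟨k, ?_⟩
        apply Subtype.ext
        simp only [SubgroupClass.coe_pow, OneMemClass.coe_one]
        change ((x ^ j) ^ (p ^ k)) = 1
        rw [← zpow_natCast, ← zpow_mul, mul_comm, zpow_mul, zpow_natCast, hx, one_zpow]
      obtain ⟨T, hT⟩ := h1.exists_le_sylow
      exact ⟨T, hT (mem_zpowers x)⟩
    have hScomm : ∀ x ∈ S, ∀ y ∈ S, x * y = y * x := by
      rintro x ⟨p, hp, hpM, k, hk⟩ y ⟨q, hq, hqM, l, hl⟩
      haveI : Fact p.Prime := ⟨hp⟩
      haveI : Fact q.Prime := ⟨hq⟩
      obtain ⟨T, hT⟩ := hsylow_mem p ⟨hp⟩ x k hk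
      obtain ⟨U, hU⟩ := hsylow_mem q ⟨hq⟩ y l hl
      by_cases hpq : p = q
      · subst hpq
        haveI hn' : (T : Subgroup G).Normal := hex p ⟨hp⟩ T
        letI := Sylow.unique_of_normal T hn'
        have : T = U := Subsingleton.elim _ _
        subst this
        exact hcomm_sylow p ⟨hp⟩ hpM T x hT y hU
      · haveI : (T : Subgroup G).Normal := hex p ⟨hp⟩ T
        haveI : (U : Subgroup G).Normal := hex q ⟨hq⟩ U
        have hd : Disjoint (T : Subgroup G) (U : Subgroup G) :=
          IsPGroup.disjoint_of_ne p q hpq _ _ T.isPGroup' U.isPGroup'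
        exact Subgroup.commute_of_normal_of_disjoint _ _ inferInstance inferInstance hd x y hT hU
    refine ⟨Subgroup.closure S, ?_, ?_⟩
    · apply isMulComm_of_forall
      have hz : closure S ≤ centralizer (closure S : Set G) := by
        rw [Subgroup.closure_le]
        intro x hx
        rw [SetLike.mem_coe, Subgroup.mem_centralizer_iff]
        intro y hy
        have : closure S ≤ centralizer {x} := by
          rw [Subgroup.closure_le]
          intro z hz
          rw [SetLike.mem_coe, Subgroup.mem_centralizer_iff]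
          intro w hw
          rw [Set.mem_singleton_iff] at hw
          subst hw
          exact hScomm _ hx _ hz
        have h2 := this hy
        rw [Subgroup.mem_centralizer_iff] at h2
        exact (h2 x rfl).symm
      intro a ha b hb
      have := hz ha
      rw [Subgroup.mem_centralizer_iff] at this
      exact (this b hb).symm
    · set H : Subgroup G := closure S ⊔ M with hH
      have hMH : M ≤ H := le_sup_right
      have h1 : H.index ∣ M.index := Subgroup.index_dvd_of_le hMH
      have h2 : H.index = 1 := by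
        by_contra hne
        obtain ⟨p, hp, hpd⟩ := Nat.exists_prime_and_dvd hne
        haveI : Fact p.Prime := ⟨hp⟩
        let T : Sylow p G := default
        have hTH : (T : Subgroup G) ≤ H := by
          intro x hx
          obtain ⟨k, hk⟩ := (IsPGroup.iff_orderOf.mp (T.isPGroup') ⟨x, hx⟩)
          have hx1 : x ^ (p ^ k) = 1 := by
            have := pow_orderOf_eq_one (⟨x, hx⟩ : (T : Subgroup G))
            rw [hk] at this
            simpa using congrArg Subtype.val this
          exact (le_sup_left : closure S ≤ H) (subset_closure ⟨p, hp, hpd.trans h1, k, hx1⟩)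
        exact T.not_dvd_index (hpd.trans (Subgroup.index_dvd_of_le hTH))
      exact Subgroup.index_eq_one.mp h2

end Cfsg.Agent.Lib.AbConj
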