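import Mathlib
import Cfsg.Agent.Lib.AbConj.Lift
import Cfsg.Agent.Lib.PGroups.EqualOrder

/-!
# Abelian subgroups of equal order being conjugate passes to odd quotients
-/

set_option autoImplicit false
set_option linter.unusedSectionVars false
set_option linter.style.haveILetI false

namespace Cfsg.Agent.Lib.AbConj

universe u

open Subgroup

variable {G : Type u} [Group G] [Finite G]

/-- The conjugacy hypothesis. -/
def ConjAb (G : Type u) [Group G] : Prop :=
  ∀ A B : Subgroup G, IsMulCommutative ↥A → IsMulCommutative ↥B → Nat.card ↥A = Nat.card ↥B →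
    ∃ g : G, B = A.map (MulAut.conj g).toMonoidHom

theorem zpowers_isMulComm (x : G) : IsMulCommutative (zpowers x) := by
  apply isMulComm_of_forall
  rintro _ ⟨i, rfl⟩ _ ⟨j, rfl⟩
  exact (Commute.refl x).zpow_zpow i j

/-- A non-cyclic `t`-group, `t` odd, contains an abelian subgroup of order `t²` of exponent `t`. -/
theorem exists_elem_sq {t : ℕ} [ht : Fact t.Prime] (ht2 : t ≠ 2) (P : Subgroup G) (hP : IsPGroup t P)
    (hnc : ¬ IsCyclic P) : ∃ E : Subgroup G, IsMulCommutative E ∧ Nat.card E = t ^ 2 ∧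
      ∀ x ∈ E, x ^ t = 1 := by
  have h1 : ∃ E : Subgroup P, IsMulCommutative E ∧ ¬ IsCyclic E := by
    by_contra hne
    push Not at hne
    have hU := Cfsg.Agent.Lib.PGroups.uniqueP_of_no_noncyclic (Q := P) hP
      (fun E hE hc => hc (hne E hE))
    exact hnc (Cfsg.Agent.Lib.OddLocal.isCyclic_of_uniqueP_odd ht2 _ P rfl hP hU)
  obtain ⟨E, hEc, hEn⟩ := h1
  have hE : IsPGroup t E := hP.to_subgroup E
  have hcomm : ∀ a b : E, a * b = b * a := fun a b => hEc.is_comm.comm a b
  have hnU : ¬ Cfsg.Agent.Lib.OddLocal.UniqueP t E :=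
    fun hU => hEn (Cfsg.Agent.Lib.OddLocal.isCyclic_of_comm_uniqueP hE hcomm hU)
  unfold Cfsg.Agent.Lib.OddLocal.UniqueP at hnU
  push Not at hnU
  obtain ⟨H, K, hH, hK, hHK⟩ := hnU
  letI : CommGroup E := { (inferInstance : Group E) with mul_comm := hcomm }
  let φ : E →* E := powMonoidHom t
  have hHk : H ≤ φ.ker := by
    intro x hx
    rw [MonoidHom.mem_ker]
    have := pow_card_eq_one' (x := (⟨x, hx⟩ : H))
    rw [hH] at this
    simpa [φ] using congrArg Subtype.val this
  have hKk : K ≤ φ.ker := by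
    intro x hx
    rw [MonoidHom.mem_ker]
    have := pow_card_eq_one' (x := (⟨x, hx⟩ : K))
    rw [hK] at this
    simpa [φ] using congrArg Subtype.val this
  have hk : IsPGroup t φ.ker := hE.to_subgroup _
  obtain ⟨a, ha⟩ := hk.exists_card_eq
  have ha2 : 2 ≤ a := by
    by_contra hlt
    have hale : Nat.card φ.ker ≤ t := by
      rw [ha]
      calc t ^ a ≤ t ^ 1 := Nat.pow_le_pow_right ht.out.pos (by omega)
        _ = t := pow_one t
    have hHe : H = φ.ker := Subgroup.eq_of_le_of_card_ge hHk (by rw [hH]; exact hale)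
    have hKe : K = φ.ker := Subgroup.eq_of_le_of_card_ge hKk (by rw [hK]; exact hale)
    exact hHK (hHe.trans hKe.symm)
  have hdvd : t ^ 2 ∣ Nat.card φ.ker := by
    rw [ha]; exact pow_dvd_pow t ha2
  obtain ⟨F, hF⟩ := Sylow.exists_subgroup_card_pow_prime t hdvd
  -- push `F` to `G`
  let ι : φ.ker →* G := P.subtype.comp (E.subtype.comp φ.ker.subtype)
  have hι : Function.Injective ι :=
    P.subtype_injective.comp (E.subtype_injective.comp φ.ker.subtype_injective)
  refine ⟨F.map ι, ?_, ?_, ?_⟩
  · apply isMulComm_of_forall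
    rintro _ ⟨x, hx, rfl⟩ _ ⟨y, hy, rfl⟩
    rw [← map_mul, ← map_mul]
    congr 1
    apply Subtype.ext
    exact hcomm _ _
  · rw [Subgroup.card_map_of_injective hι, hF]
  · rintro _ ⟨x, hx, rfl⟩
    rw [← map_pow]
    have hx1 : φ x.1 = 1 := x.2
    have : x ^ t = 1 := Subtype.ext hx1
    rw [this, map_one]

/-- The hypothesis gives the property of `t`-subgroups. -/
theorem good_of_conjAb (hB : ConjAb G) (M : Subgroup G) [hMn : M.Normal] (hM : Odd (Nat.card M)) :
    Good G M := by
  intro t ht htM P hP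
  haveI : Fact t.Prime := ⟨ht⟩
  have ht2 : t ≠ 2 := by
    rintro rfl
    exact (Nat.not_even_iff_odd.mpr hM) (even_iff_two_dvd.mpr htM)
  by_cases hc : IsCyclic P
  · exact Or.inl hc
  right
  obtain ⟨E, hEc, hEn, hEe⟩ := exists_elem_sq ht2 P hP hc
  -- no element of order `t²`
  have hno : ∀ x : G, orderOf x ≠ t ^ 2 := by
    intro x hx
    have hcard : Nat.card E = Nat.card (zpowers x) := by
      rw [hEn, Nat.card_zpowers, hx]
    obtain ⟨g, hg⟩ := hB E (zpowers x) hEc (zpowers_isMulComm x) hcard
    have hxm : x ∈ E.map (MulAut.conj g).toMonoidHom := hg ▸ mem_zpowers x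
    obtain ⟨e, he, hxe⟩ := hxm
    have h1 : x ^ t = 1 := by
      rw [← hxe, ← map_pow, hEe e he, map_one]
    have h2 : t ^ 2 ∣ t := hx ▸ orderOf_dvd_of_pow_eq_one h1
    have h3 := Nat.le_of_dvd ht.pos h2
    have h4 : 2 ≤ t := ht.two_le
    nlinarith
  obtain ⟨z, hz⟩ := exists_prime_orderOf_dvd_card' t htM
  have hz' : orderOf (z : G) = t := by
    rw [← hz]; exact Subgroup.orderOf_coe z
  intro y hy
  obtain ⟨k, hk⟩ := IsPGroup.iff_orderOf.mp hP ⟨y, hy⟩
  have hk' : orderOf y = t ^ k := by
    rw [← hk]; exact (Subgroup.orderOf_mk y hy).symm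
  have hk1 : k ≤ 1 := by
    by_contra hlt
    have hk2 : 2 ≤ k := by omega
    have h1 : t ^ (k - 2) ∣ orderOf y := by
      rw [hk']; exact pow_dvd_pow t (by omega)
    have h2 := orderOf_pow_of_dvd (x := y) (n := t ^ (k - 2)) (pow_ne_zero _ ht.ne_zero) h1
    apply hno (y ^ t ^ (k - 2))
    rw [h2, hk']
    have h3 : t ^ k = t ^ (k - 2) * t ^ 2 := by rw [← pow_add]; congr 1; omega
    rw [h3]
    exact Nat.mul_div_cancel_left _ (pow_pos ht.pos _)
  interval_cases k
  · have : y = 1 := by simpa using hk'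
    rw [this]; exact M.one_mem
  · have hcard : Nat.card (zpowers (z : G)) = Nat.card (zpowers y) := by
      rw [Nat.card_zpowers, Nat.card_zpowers, hz', hk', pow_one]
    obtain ⟨g, hg⟩ := hB _ _ (zpowers_isMulComm (z : G)) (zpowers_isMulComm y) hcard
    have hxm : y ∈ (zpowers (z : G)).map (MulAut.conj g).toMonoidHom := hg ▸ mem_zpowers y
    obtain ⟨e, ⟨i, rfl⟩, hxe⟩ := hxm
    rw [← hxe]
    exact hMn.conj_mem _ (M.zpow_mem z.2 i) g

variable (M : Subgroup G) [hMn : M.Normal]

theorem card_eq_inf_mul_map (A : Subgroup G) :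
    Nat.card A = Nat.card (A ⊓ M : Subgroup G) * Nat.card (A.map (QuotientGroup.mk' M)) := by
  let f : A →* G ⧸ M := (QuotientGroup.mk' M).comp A.subtype
  have h1 := Subgroup.card_mul_index f.ker
  rw [Subgroup.index_ker] at h1
  have h2 : f.range = A.map (QuotientGroup.mk' M) := by
    ext y
    simp [MonoidHom.mem_range, Subgroup.mem_map, f]
  rw [h2] at h1
  have h3 : f.ker = M.subgroupOf A := by
    ext x
    simp [f, MonoidHom.mem_ker, Subgroup.mem_subgroupOf, QuotientGroup.eq_one_iff]
  have h4 : Nat.card f.ker = Nat.card (A ⊓ M : Subgroup G) := by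
    rw [h3, ← Subgroup.card_map_of_injective (f := A.subtype) A.subtype_injective,
      Subgroup.subgroupOf_map_subtype, inf_comm]
  rw [h4] at h1
  exact h1.symm

/-- Stripping the part of `A` of order prime to `#Ā`. -/
theorem exists_smaller (A : Subgroup G) (hA : IsMulCommutative A) (t : ℕ) [ht : Fact t.Prime]
    (htn : ¬ t ∣ Nat.card (A.map (QuotientGroup.mk' M))) (htA : t ∣ Nat.card (A ⊓ M : Subgroup G)) :
    ∃ A' : Subgroup G, IsMulCommutative A' ∧ A'.map (QuotientGroup.mk' M) = A.map (QuotientGroup.mk' M) ∧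
      Nat.card A' < Nat.card A := by
  have hN0 : Nat.card A ≠ 0 := Nat.card_pos.ne'
  obtain ⟨e, N', hN', hN⟩ := Nat.exists_eq_pow_mul_and_not_dvd hN0 t ht.out.ne_one
  have hcp : Nat.Coprime (t ^ e) N' :=
    Nat.Coprime.pow_left _ ((Nat.Prime.coprime_iff_not_dvd ht.out).mpr hN')
  let A' : Subgroup G :=
    { carrier := {x | x ∈ A ∧ x ^ N' = 1}
      one_mem' := ⟨A.one_mem, one_pow _⟩
      mul_mem' := by
        rintro x y ⟨hx, hx1⟩ ⟨hy, hy1⟩
        refine ⟨A.mul_mem hx hy, ?_⟩
        have hc : Commute x y := forall_of_isMulComm hA hx hy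
        rw [hc.mul_pow, hx1, hy1, one_mul]
      inv_mem' := by
        rintro x ⟨hx, hx1⟩
        exact ⟨A.inv_mem hx, by rw [inv_pow, hx1, inv_one]⟩ }
  have hA'A : A' ≤ A := fun x hx => hx.1
  refine ⟨A', ?_, ?_, ?_⟩
  · apply isMulComm_of_forall
    intro a ha b hb
    exact forall_of_isMulComm hA (hA'A ha) (hA'A hb)
  · apply le_antisymm (Subgroup.map_mono hA'A)
    rintro _ ⟨a, ha, rfl⟩
    have hc : IsCoprime ((t ^ e : ℕ) : ℤ) (N' : ℤ) := Nat.isCoprime_iff_coprime.mpr hcp
    obtain ⟨u, v, huv⟩ := hc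
    have hpow : a ^ (t ^ e * N') = 1 := by
      rw [← hN]
      have := pow_card_eq_one' (x := (⟨a, ha⟩ : A))
      simpa only [SubgroupClass.coe_pow, OneMemClass.coe_one] using congrArg Subtype.val this
    let a₁ := a ^ (u * ((t ^ e : ℕ) : ℤ))
    let a₂ := a ^ (v * (N' : ℤ))
    have ha12 : a = a₁ * a₂ := by
      simp only [a₁, a₂]
      rw [← zpow_add, huv, zpow_one]
    have ha₁ : a₁ ∈ A' := by
      refine ⟨A.zpow_mem ha _, ?_⟩
      simp only [a₁]
      rw [← zpow_natCast, ← zpow_mul]
      have : u * ((t ^ e : ℕ) : ℤ) * (N' : ℤ) = ((t ^ e * N' : ℕ) : ℤ) * u := by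
        push_cast; ring
      rw [this, zpow_mul, zpow_natCast, hpow, one_zpow]
    have ha₂1 : a₂ ^ (t ^ e) = 1 := by
      simp only [a₂]
      rw [← zpow_natCast, ← zpow_mul]
      have : v * (N' : ℤ) * ((t ^ e : ℕ) : ℤ) = ((t ^ e * N' : ℕ) : ℤ) * v := by
        push_cast; ring
      rw [this, zpow_mul, zpow_natCast, hpow, one_zpow]
    have ha₂A : a₂ ∈ A := A.zpow_mem ha _
    have hf2 : QuotientGroup.mk' M a₂ = 1 := by
      have hm : QuotientGroup.mk' M a₂ ∈ A.map (QuotientGroup.mk' M) := ⟨a₂, ha₂A, rfl⟩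
      have h1 := pow_card_eq_one' (x := (⟨_, hm⟩ : A.map (QuotientGroup.mk' M)))
      have h1' : (QuotientGroup.mk' M a₂) ^ Nat.card (A.map (QuotientGroup.mk' M)) = 1 := by
        simpa using congrArg Subtype.val h1
      have h2 : (QuotientGroup.mk' M a₂) ^ (t ^ e) = 1 := by rw [← map_pow, ha₂1, map_one]
      have h3 := orderOf_dvd_of_pow_eq_one h1'
      have h4 := orderOf_dvd_of_pow_eq_one h2
      have h5 : Nat.Coprime (Nat.card (A.map (QuotientGroup.mk' M))) (t ^ e) :=
        Nat.Coprime.pow_right _ (Nat.Coprime.symm ((Nat.Prime.coprime_iff_not_dvd ht.out).mpr htn))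
      have h6 := Nat.eq_one_of_dvd_coprimes h5 h3 h4
      exact orderOf_eq_one_iff.mp h6
    refine ⟨a₁, ha₁, ?_⟩
    conv_rhs => rw [ha12]
    rw [map_mul, hf2, mul_one]
  · obtain ⟨z, hz⟩ := exists_prime_orderOf_dvd_card' t htA
    have hz' : orderOf (z : G) = t := by
      rw [← hz]; exact Subgroup.orderOf_coe z
    have hzA : (z : G) ∈ A := z.2.1
    have hznot : (z : G) ∉ A' := by
      rintro ⟨_, h1⟩
      have := orderOf_dvd_of_pow_eq_one h1
      rw [hz'] at this
      exact hN' this
    have hne : Nat.card A' ≠ Nat.card A := by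
      intro h
      have : A' = A := Subgroup.eq_of_le_of_card_ge hA'A (le_of_eq h.symm)
      exact hznot (this.ge hzA)
    exact lt_of_le_of_ne (Nat.le_of_dvd Nat.card_pos (Subgroup.card_dvd_of_le hA'A)) hne

/-- An abelian subgroup of `G / M` lifts. -/
theorem exists_lift (hgood : Good G M) (Ab : Subgroup (G ⧸ M)) (hAb : IsMulCommutative Ab) :
    ∃ A : Subgroup G, IsMulCommutative A ∧ A.map (QuotientGroup.mk' M) = Ab := by
  let f := QuotientGroup.mk' M
  let X : Subgroup G := Ab.comap f
  have hc : commutator X ≤ M.subgroupOf X := by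
    rw [_root_.commutator_def, Subgroup.commutator_le]
    rintro ⟨x, hx⟩ _ ⟨y, hy⟩ _
    rw [Subgroup.mem_subgroupOf]
    have h1 : f (x * y * x⁻¹ * y⁻¹) = 1 := by
      have h2 : f x * f y = f y * f x := forall_of_isMulComm hAb hx hy
      simp only [map_mul, map_inv]
      rw [h2]; group
    exact (QuotientGroup.eq_one_iff _).mp h1
  obtain ⟨A₁, hA₁, hs⟩ := lift_abelian _ X (M.subgroupOf X) rfl hc (hgood.subgroup X)
  refine ⟨A₁.map X.subtype, ?_, ?_⟩
  · apply isMulComm_of_forall
    rintro _ ⟨a, ha, rfl⟩ _ ⟨b, hb, rfl⟩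
    have := forall_of_isMulComm hA₁ ha hb
    simpa using congrArg Subtype.val this
  · apply le_antisymm
    · rintro _ ⟨_, ⟨a, _, rfl⟩, rfl⟩
      exact a.2
    · intro b hb
      obtain ⟨g, rfl⟩ := QuotientGroup.mk'_surjective M b
      have hg : g ∈ X := hb
      have h2 : (⟨g, hg⟩ : X) ∈ ((A₁ ⊔ M.subgroupOf X : Subgroup X) : Set X) := by
        rw [hs]; exact mem_top _
      rw [Subgroup.mul_normal] at h2
      obtain ⟨a, ha, m, hm, ham⟩ := Set.mem_mul.mp h2
      refine ⟨_, ⟨a, ha, rfl⟩, ?_⟩
      have h3 : g = (a : G) * (m : G) := by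
        have := congrArg Subtype.val ham
        simpa using this.symm
      rw [h3, map_mul]
      have h4 : QuotientGroup.mk' M (m : G) = 1 := (QuotientGroup.eq_one_iff _).mpr hm
      rw [h4, mul_one]
      rfl

/-- The order of the intersection of a minimal lift with `M` is determined. -/
theorem factorization_of_min (hgood : Good G M) (A : Subgroup G) (hA : IsMulCommutative A)
    (hmin : ∀ B : Subgroup G, IsMulCommutative B →
      B.map (QuotientGroup.mk' M) = A.map (QuotientGroup.mk' M) → Nat.card A ≤ Nat.card B)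
    (t : ℕ) (ht : t.Prime) :
    (Nat.card (A ⊓ M : Subgroup G)).factorization t =
      if t ∣ Nat.card (A.map (QuotientGroup.mk' M)) then (Nat.card M).factorization t else 0 := by
  haveI : Fact t.Prime := ⟨ht⟩
  have hpos : ∀ {K : Type u} [Group K] [Finite K], Nat.card K ≠ 0 := fun {K} _ _ => Nat.card_pos.ne'
  split_ifs with htn
  · apply le_antisymm
    · have := Subgroup.card_dvd_of_le (inf_le_right : A ⊓ M ≤ M)
      exact (Nat.factorization_le_iff_dvd Nat.card_pos.ne' Nat.card_pos.ne').2 this t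
    · by_cases htM : t ∣ Nat.card M
      · -- an element of `A` outside `M` of `t`-power order
        obtain ⟨ab, hab⟩ := exists_prime_orderOf_dvd_card' t htn
        obtain ⟨a₀, ha₀, ha₀e⟩ := ab.2
        have h0 : orderOf a₀ ≠ 0 := (orderOf_pos a₀).ne'
        obtain ⟨α, β, hβ, hαβ⟩ := Nat.exists_eq_pow_mul_and_not_dvd h0 t ht.ne_one
        let a := a₀ ^ β
        have haA : a ∈ A := A.pow_mem ha₀ _
        have hat : a ^ (t ^ α) = 1 := by
          simp only [a]
          rw [← pow_mul, mul_comm, ← hαβ, pow_orderOf_eq_one]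
        have haM : a ∉ M := by
          intro hm
          have h1 : QuotientGroup.mk' M a = 1 := (QuotientGroup.eq_one_iff _).mpr hm
          have h2 : (ab : G ⧸ M) ^ β = 1 := by
            rw [← ha₀e, ← map_pow]; exact h1
          have h3 : orderOf (ab : G ⧸ M) = t := by
            rw [← hab]; exact Subgroup.orderOf_coe ab
          have h4 := orderOf_dvd_of_pow_eq_one h2
          rw [h3] at h4
          exact hβ h4
        have hz : IsPGroup t (zpowers a) := by
          intro y
          obtain ⟨y, j, rfl⟩ := y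
          refine ⟨α, ?_⟩
          apply Subtype.ext
          simp only [SubgroupClass.coe_pow, OneMemClass.coe_one]
          change ((a ^ j) ^ (t ^ α)) = 1
          rw [← zpow_natCast, ← zpow_mul, mul_comm, zpow_mul, zpow_natCast, hat, one_zpow]
        obtain ⟨T, hT⟩ := hz.exists_le_sylow
        have haT : a ∈ (T : Subgroup G) := hT (mem_zpowers a)
        rcases hgood t ht htM T T.isPGroup' with hcyc | hle
        · have hchain := Cfsg.Agent.Lib.OddLocal.le_total_of_isCyclic_isPGroup (C := (T : Subgroup G))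
            (p := t) T.isPGroup' ((zpowers a).subgroupOf T) (M.subgroupOf T)
          have hTM : (T : Subgroup G) ⊓ M ≤ A ⊓ M := by
            rintro x ⟨hxT, hxM⟩
            rcases hchain with hc | hc
            · exfalso
              apply haM
              have : (⟨a, haT⟩ : (T : Subgroup G)) ∈ (zpowers a).subgroupOf T := by
                rw [Subgroup.mem_subgroupOf]; exact mem_zpowers a
              exact Subgroup.mem_subgroupOf.mp (hc this)
            · have h1 : (⟨x, hxT⟩ : (T : Subgroup G)) ∈ M.subgroupOf T := by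
                rw [Subgroup.mem_subgroupOf]; exact hxM
              have h2 := Subgroup.mem_subgroupOf.mp (hc h1)
              obtain ⟨i, hi⟩ := h2
              refine ⟨?_, hxM⟩
              have : x = a ^ i := hi.symm
              rw [this]
              exact A.zpow_mem haA i
          have h1 := (Nat.factorization_le_iff_dvd Nat.card_pos.ne' Nat.card_pos.ne').2
            (Subgroup.card_dvd_of_le hTM) t
          refine le_trans ?_ h1
          -- counting
          have h2 := card_eq_inf_mul_map M (T : Subgroup G)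
          have h3 := Subgroup.card_mul_index (T : Subgroup G)
          have h4 : (T : Subgroup G).index.factorization t = 0 :=
            Nat.factorization_eq_zero_of_not_dvd T.not_dvd_index
          have h5 := Subgroup.card_eq_card_quotient_mul_card_subgroup M
          have h6 : Nat.card ((T : Subgroup G).map (QuotientGroup.mk' M)) ∣ Nat.card (G ⧸ M) :=
            Subgroup.card_subgroup_dvd_card _
          have h7 := (Nat.factorization_le_iff_dvd Nat.card_pos.ne' Nat.card_pos.ne').2 h6 t
          have e1 : (Nat.card G).factorization t =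
              (Nat.card (T : Subgroup G)).factorization t := by
            rw [← h3, Nat.factorization_mul Nat.card_pos.ne' (Subgroup.index_ne_zero_of_finite)]
            simp [h4]
          have e2 : (Nat.card (T : Subgroup G)).factorization t =
              (Nat.card ((T : Subgroup G) ⊓ M : Subgroup G)).factorization t +
                (Nat.card ((T : Subgroup G).map (QuotientGroup.mk' M))).factorization t := by
            conv_lhs => rw [h2]
            rw [Nat.factorization_mul Nat.card_pos.ne' Nat.card_pos.ne']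
            simp
          have e3 : (Nat.card G).factorization t =
              (Nat.card (G ⧸ M)).factorization t + (Nat.card M).factorization t := by
            conv_lhs => rw [h5]
            rw [Nat.factorization_mul Nat.card_pos.ne' Nat.card_pos.ne']
            simp
          omega
        · exfalso
          exact haM (hle haT)
      · rw [Nat.factorization_eq_zero_of_not_dvd htM]
        exact Nat.zero_le _
  · by_contra hne
    have hd : t ∣ Nat.card (A ⊓ M : Subgroup G) :=
      Nat.dvd_of_factorization_pos hne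
    obtain ⟨B, hB, hBm, hBc⟩ := exists_smaller M A hA t htn hd
    exact absurd (hmin B hB hBm) (not_le.mpr hBc)

theorem exists_min_lift (hgood : Good G M) (Ab : Subgroup (G ⧸ M)) (hAb : IsMulCommutative Ab) :
    ∃ A : Subgroup G, IsMulCommutative A ∧ A.map (QuotientGroup.mk' M) = Ab ∧
      ∀ B : Subgroup G, IsMulCommutative B → B.map (QuotientGroup.mk' M) = Ab →
        Nat.card A ≤ Nat.card B := by
  classical
  have hex : ∃ n, ∃ A : Subgroup G, IsMulCommutative A ∧ A.map (QuotientGroup.mk' M) = Ab ∧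
      Nat.card A = n := by
    obtain ⟨A, h1, h2⟩ := exists_lift M hgood Ab hAb
    exact ⟨_, A, h1, h2, rfl⟩
  obtain ⟨A, h1, h2, h3⟩ := Nat.find_spec hex
  refine ⟨A, h1, h2, fun B hB hB2 => ?_⟩
  rw [h3]
  exact Nat.find_min' hex ⟨B, hB, hB2, rfl⟩

/-- **S3911**. -/
theorem conj_quot (hB : ConjAb G) (hM : Odd (Nat.card M)) : ConjAb (G ⧸ M) := by
  intro Ab Bb hAb hBb hcard
  have hgood := good_of_conjAb hB M hM
  obtain ⟨A, hA, hAm, hAmin⟩ := exists_min_lift M hgood Ab hAb
  obtain ⟨B, hB', hBm, hBmin⟩ := exists_min_lift M hgood Bb hBb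
  have hfA := factorization_of_min M hgood A hA (fun C hC hCm => hAmin C hC (hCm.trans hAm))
  have hfB := factorization_of_min M hgood B hB' (fun C hC hCm => hBmin C hC (hCm.trans hBm))
  have hinf : Nat.card (A ⊓ M : Subgroup G) = Nat.card (B ⊓ M : Subgroup G) := by
    apply Nat.eq_of_factorization_eq Nat.card_pos.ne' Nat.card_pos.ne'
    intro t
    by_cases ht : t.Prime
    · rw [hfA t ht, hfB t ht, hAm, hBm, hcard]
    · rw [Nat.factorization_eq_zero_of_not_prime _ ht, Nat.factorization_eq_zero_of_not_prime _ ht]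
  have hAB : Nat.card A = Nat.card B := by
    rw [card_eq_inf_mul_map M A, card_eq_inf_mul_map M B, hinf, hAm, hBm, hcard]
  obtain ⟨g, hg⟩ := hB A B hA hB' hAB
  refine ⟨QuotientGroup.mk' M g, ?_⟩
  rw [← hAm, ← hBm, hg, Subgroup.map_map, Subgroup.map_map]
  congr 1

end Cfsg.Agent.Lib.AbConj
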